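import Cfsg.Agent.H860.JM.Geom
import Mathlib.GroupTheory.Index

/-!
# JM-L3 (task 3790, for S5580; helper919)

`l3` : points pairwise meeting in lines, triples meeting, trivial total intersection, `M`-invariant ⟹ `M` normalizes a
group `X`.
-/

set_option autoImplicit false
set_option linter.unusedSectionVars false

namespace Cfsg.Agent.H919.JM

open Cfsg.Agent.H860.JM

variable {G : Type*} [Group G] {Γ : Geom G}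

theorem conj_mem {P : Subgroup G} {x u : G} (hx : x ∈ Subgroup.normalizer (P : Set G)) (hu : u ∈ P) : x * u * x⁻¹ ∈ P :=
  (Subgroup.mem_normalizer_iff.1 hx u).1 hu

/-- an element fixed by `Q` -/
theorem mem_E {M Q E : Subgroup G} (hL : Loc M Q E) {T : Subgroup G}
    (hT : ∀ x ∈ Q, ∀ u ∈ T, x * u * x⁻¹ ∈ T) {z : G} (hz : z ≠ 1) (hzT : z ∈ T) (hsq : z * z = 1)
    (hu : ∀ u ∈ T, u = 1 ∨ u = z) : z ∈ E := by
  refine hL.mem z hsq fun x hx => ?_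
  rcases hu _ (hT x hx z hzT) with h | h
  · exfalso
    apply hz
    have h1 : x * z = x := by
      have := mul_eq_one_iff_eq_inv.1 h
      rwa [inv_inv] at this
    exact mul_eq_left.1 h1
  · exact (mul_inv_eq_iff_eq_mul.1 h)

theorem exists_ne_one {T : Subgroup G} (h : T ≠ ⊥) : ∃ z ∈ T, z ≠ 1 := by
  by_contra hcon
  push Not at hcon
  exact h ((Subgroup.eq_bot_iff_forall T).2 hcon)

/-- three points of a 4-tuple with trivial intersection meet in a group of order two -/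
theorem tri (h : Facts Γ) {P₁ P₂ P₃ P₄ : Subgroup G} (hl : Γ.Ln (P₁ ⊓ P₂)) (h3 : Γ.Pt P₃) (h123 : P₁ ⊓ P₂ ⊓ P₃ ≠ ⊥)
    (h124 : P₁ ⊓ P₂ ⊓ P₄ ≠ ⊥) (h4 : P₁ ⊓ P₂ ⊓ P₃ ⊓ P₄ = ⊥) :
    ∃ z, z ∈ P₁ ⊓ P₂ ⊓ P₃ ∧ z ≠ 1 ∧ ∀ u ∈ P₁ ⊓ P₂ ⊓ P₃, u = 1 ∨ u = z := by
  obtain ⟨z, hz, hz1⟩ := exists_ne_one h123
  refine ⟨z, hz, hz1, fun u hu => ?_⟩
  by_contra hcon
  push Not at hcon
  have h5 := h.f6.le (P₁ ⊓ P₂) P₃ hl h3 u z hcon.1 hz1 hcon.2 hu.1 hz.1 hu.2 hz.2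
  apply h124
  rw [eq_bot_iff, ← h4]
  exact fun x hx => ⟨⟨hx.1, h5 hx.1⟩, hx.2⟩

section eight

variable [Finite G]

/-- eight elements of `W_w` -/
theorem eight_le (h : Facts Γ) (hmul : ∀ P w, Γ.Pt P → KA Γ P w → ∀ v ∈ Fs Γ P w, ∀ v' ∈ Fs Γ P w, v * v' ∈ Fs Γ P w)
    {P P' : Subgroup G} {w v v' : G} (hP : Γ.Pt P) (hk : KA Γ P w) (hw : w ∈ P') (hv : v ∈ Fs Γ P w) (hv' : v' ∈ Fs Γ P w)
    (hvP : v ∈ P') (hvP' : v' ∈ P') (h1 : v ≠ 1) (h1' : v' ≠ 1) (hne : v ≠ v') :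
    8 ≤ (Ws Γ P w ∩ (P' : Set G)).ncard := by
  have hel := h.f3.el P hP
  have hww : w * w = 1 := (h.f1.A_inv w hk.act.A).2
  have hone : (1 : G) ∈ Fs Γ P w := ⟨P.one_mem, by rw [one_mul, mul_one], Or.inl rfl⟩
  have hvv : v * v' ∈ Fs Γ P w := hmul P w hP hk v hv v' hv'
  set K : Set G := {1, v, v', v * v'} with hK
  have hKF : K ⊆ Fs Γ P w := by
    rintro u (rfl | rfl | rfl | rfl)
    · exact hone
    · exact hv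
    · exact hv'
    · exact hvv
  have hKP' : K ⊆ (P' : Set G) := by
    rintro u (rfl | rfl | rfl | rfl)
    · exact P'.one_mem
    · exact hvP
    · exact hvP'
    · exact P'.mul_mem hvP hvP'
  have hcard : K.ncard = 4 := by
    have hv2 : v' * v' = 1 := hel.sq v' hv'.1
    have e1 : v ≠ v * v' := fun e => h1' (mul_eq_left.1 e.symm)
    have e2 : v' ≠ v * v' := fun e => h1 (mul_eq_right.1 e.symm)
    have e3 : (1 : G) ≠ v * v' := by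
      intro e
      apply hne
      have : v * v' = v' * v' := by rw [← e, hv2]
      exact mul_right_cancel this
    rw [hK, Set.ncard_insert_of_notMem, Set.ncard_insert_of_notMem, Set.ncard_pair e2]
    · simp only [Set.mem_insert_iff, Set.mem_singleton_iff, not_or]
      exact ⟨hne, e1⟩
    · simp only [Set.mem_insert_iff, Set.mem_singleton_iff, not_or]
      exact ⟨h1.symm, h1'.symm, e3⟩
  have hinj : Function.Injective (fun u : G => w * u) := mul_right_injective w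
  have hcard' : ((fun u : G => w * u) '' K).ncard = 4 := by rw [Set.ncard_image_of_injective _ hinj, hcard]
  have hdis : Disjoint K ((fun u : G => w * u) '' K) := by
    rw [Set.disjoint_left]
    rintro u hu ⟨y, hy, rfl⟩
    apply hk.act.not_mem
    have h2 : w * y ∈ P := (hKF hu).1
    have h3 : y ∈ P := (hKF hy).1
    have := P.mul_mem h2 (P.inv_mem h3)
    rwa [mul_inv_cancel_right] at this
  have hsub : K ∪ ((fun u : G => w * u) '' K) ⊆ Ws Γ P w ∩ (P' : Set G) := by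
    rintro u (hu | ⟨y, hy, rfl⟩)
    · exact ⟨Or.inl (hKF hu), hKP' hu⟩
    · refine ⟨Or.inr ?_, P'.mul_mem hw (hKP' hy)⟩
      show w * (w * y) ∈ Fs Γ P w
      rw [← mul_assoc, hww, one_mul]
      exact hKF hy
  have h8 : (K ∪ ((fun u : G => w * u) '' K)).ncard = 8 := by
    rw [Set.ncard_union_eq hdis (Set.toFinite _) (Set.toFinite _), hcard, hcard']
  rw [← h8]
  exact Set.ncard_le_ncard hsub (Set.toFinite _)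

theorem card_mul_relIndex (A T : Subgroup G) (h : A ≤ T) : Nat.card A * A.relIndex T = Nat.card T := by
  have := Subgroup.relIndex_mul_relIndex ⊥ A T bot_le h
  rwa [Subgroup.relIndex_bot_left, Subgroup.relIndex_bot_left] at this

/-- two lines meeting in a group of order two generate at least 32 elements -/
theorem le_of_lines {A B T : Subgroup G} (hA : A ≤ T) (hB : B ≤ T) (ha : Nat.card A = 8) (hb : Nat.card B = 8)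
    (hab : Nat.card (A ⊓ B : Subgroup G) = 2) : 32 ≤ Nat.card T := by
  have h1 := card_mul_relIndex (A ⊓ B) B inf_le_right
  rw [hab, hb, Subgroup.inf_relIndex_right] at h1
  have h3 := card_mul_relIndex A T hA
  have h0 : A.relIndex T ≠ 0 := by
    intro h0
    rw [h0, mul_zero] at h3
    exact Nat.card_pos.ne h3
  have h2 : A.relIndex B ≤ A.relIndex T := Subgroup.relIndex_le_of_le_right hB h0
  rw [ha] at h3
  omega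

/-- the cardinality of a group with exactly two elements -/
theorem card_two {T : Subgroup G} {z : G} (hz : z ∈ T) (h1 : z ≠ 1) (hu : ∀ u ∈ T, u = 1 ∨ u = z) : Nat.card T = 2 := by
  have h2 : (T : Set G) = {1, z} := by
    ext u
    constructor
    · intro h
      exact hu u h
    · rintro (rfl | rfl)
      · exact T.one_mem
      · exact hz
  have h3 : Nat.card T = (T : Set G).ncard := Nat.card_coe_set_eq _
  rw [h3, h2, Set.ncard_pair h1.symm]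

/-- uniqueness of `X` -/
theorem X_uniq (h : Facts Γ) {P₁ P₂ P₃ X X' : Subgroup G} (h1 : Γ.Pt P₁) (h2 : Γ.Pt P₂) (h3 : Γ.Pt P₃) (h12 : P₁ ≠ P₂)
    (h13 : P₁ ≠ P₃) (h23 : P₂ ≠ P₃) (l12 : Γ.Ln (P₁ ⊓ P₂)) (l13 : Γ.Ln (P₁ ⊓ P₃)) (l23 : Γ.Ln (P₂ ⊓ P₃))
    (h123 : Nat.card (P₁ ⊓ P₂ ⊓ P₃ : Subgroup G) = 2) (hX : Γ.Xc X) (hX' : Γ.Xc X')
    (c1 : Nat.card (P₁ ⊓ X : Subgroup G) = 64) (c2 : Nat.card (P₂ ⊓ X : Subgroup G) = 64)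
    (c3 : Nat.card (P₃ ⊓ X : Subgroup G) = 64) (c1' : Nat.card (P₁ ⊓ X' : Subgroup G) = 64)
    (c2' : Nat.card (P₂ ⊓ X' : Subgroup G) = 64) (c3' : Nat.card (P₃ ⊓ X' : Subgroup G) = 64) : X = X' := by
  have a12 := h.f14.le _ _ _ h1 h2 h12 hX c1 c2
  have a13 := h.f14.le _ _ _ h1 h3 h13 hX c1 c3
  have a23 := h.f14.le _ _ _ h2 h3 h23 hX c2 c3
  have a12' := h.f14.le _ _ _ h1 h2 h12 hX' c1' c2'
  have a13' := h.f14.le _ _ _ h1 h3 h13 hX' c1' c3'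
  have a23' := h.f14.le _ _ _ h2 h3 h23 hX' c2' c3'
  have e1 : P₁ ⊓ X = P₁ ⊓ X' := by
    refine h.f14.eq _ _ _ h1 hX hX' c1 c1' (le_of_lines (A := P₁ ⊓ P₂) (B := P₁ ⊓ P₃)
      (le_inf (le_inf inf_le_left a12) a12') (le_inf (le_inf inf_le_left a13) a13') (h.f6.card _ l12) (h.f6.card _ l13) ?_)
    rw [← h123]
    congr 2
    rw [← inf_inf_distrib_left, inf_assoc]
  have e2 : P₂ ⊓ X = P₂ ⊓ X' := by
    refine h.f14.eq _ _ _ h2 hX hX' c2 c2' (le_of_lines (A := P₁ ⊓ P₂) (B := P₂ ⊓ P₃)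
      (le_inf (le_inf inf_le_right a12) a12') (le_inf (le_inf inf_le_left a23) a23') (h.f6.card _ l12) (h.f6.card _ l23) ?_)
    rw [← h123]
    congr 2
    rw [inf_assoc, ← inf_assoc P₂ P₂ P₃, inf_idem, inf_assoc]
  exact h.f14.uniq _ _ _ _ h1 h2 h12 hX hX' c1 c2 e1 e2

theorem conj_inf_mem {Q P P' : Subgroup G} (h : Q ≤ Subgroup.normalizer (P : Set G))
    (h' : Q ≤ Subgroup.normalizer (P' : Set G)) {x : G} (hx : x ∈ Q) {u : G} (hu : u ∈ P ⊓ P') :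
    x * u * x⁻¹ ∈ P ⊓ P' :=
  ⟨conj_mem (h hx) hu.1, conj_mem (h' hx) hu.2⟩

/-- the setting -/
structure Set4 (Γ : Geom G) (M Q E : Subgroup G) (S : Set (Subgroup G)) : Prop where
  loc : Loc M Q E
  pt : ∀ P ∈ S, Γ.Pt P
  norm : ∀ P ∈ S, Q ≤ Subgroup.normalizer (P : Set G)
  line : ∀ P ∈ S, ∀ P' ∈ S, P ≠ P' → Γ.Ln (P ⊓ P')
  trip : ∀ P ∈ S, ∀ P' ∈ S, ∀ P'' ∈ S, P ⊓ P' ⊓ P'' ≠ ⊥

/-- **The group `X` of a 4-tuple.** -/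
theorem exists_X (h : Facts Γ) (hmul : ∀ P w, Γ.Pt P → KA Γ P w → ∀ v ∈ Fs Γ P w, ∀ v' ∈ Fs Γ P w, v * v' ∈ Fs Γ P w)
    {M Q E : Subgroup G} {S : Set (Subgroup G)} (hS : Set4 Γ M Q E S) {P₁ P₂ P₃ P₄ : Subgroup G} (m1 : P₁ ∈ S)
    (m2 : P₂ ∈ S) (m3 : P₃ ∈ S) (m4 : P₄ ∈ S) (h4 : P₁ ⊓ P₂ ⊓ P₃ ⊓ P₄ = ⊥) :
    ∃ X, Γ.Xc X ∧ Nat.card (P₁ ⊓ X : Subgroup G) = 64 ∧ Nat.card (P₂ ⊓ X : Subgroup G) = 64 ∧
      Nat.card (P₃ ⊓ X : Subgroup G) = 64 ∧ Nat.card (P₄ ⊓ X : Subgroup G) = 64 ∧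
      ∀ P', Γ.Pt P' → P₂ ⊓ P₃ ⊓ P₄ ≤ P' → P₁ ⊓ P₃ ⊓ P₄ ≤ P' → P₁ ⊓ P₂ ⊓ P₄ ≤ P' →
        Nat.card (P' ⊓ X : Subgroup G) = 64 := by
  -- the points are distinct
  have d12 : P₁ ≠ P₂ := by
    rintro rfl
    rw [inf_idem] at h4
    exact hS.trip _ m1 _ m3 _ m4 h4
  have d13 : P₁ ≠ P₃ := by
    rintro rfl
    rw [inf_assoc P₁ P₂ P₁, inf_comm P₂ P₁, ← inf_assoc, inf_idem] at h4
    exact hS.trip _ m1 _ m2 _ m4 h4
  have d14 : P₁ ≠ P₄ := by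
    rintro rfl
    rw [inf_comm, ← inf_assoc, ← inf_assoc, inf_idem] at h4
    exact hS.trip _ m1 _ m2 _ m3 h4
  have d23 : P₂ ≠ P₃ := by
    rintro rfl
    rw [inf_assoc P₁ P₂ P₂, inf_idem] at h4
    exact hS.trip _ m1 _ m2 _ m4 h4
  have d24 : P₂ ≠ P₄ := by
    rintro rfl
    rw [inf_assoc (P₁ ⊓ P₂), inf_comm P₃ P₂, ← inf_assoc, inf_assoc P₁ P₂ P₂, inf_idem] at h4
    exact hS.trip _ m1 _ m2 _ m3 h4
  have d34 : P₃ ≠ P₄ := by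
    rintro rfl
    rw [inf_assoc (P₁ ⊓ P₂), inf_idem] at h4
    exact hS.trip _ m1 _ m2 _ m3 h4
  have l12 := hS.line _ m1 _ m2 d12
  have l13 := hS.line _ m1 _ m3 d13
  have l14 := hS.line _ m1 _ m4 d14
  have l23 := hS.line _ m2 _ m3 d23
  have l24 := hS.line _ m2 _ m4 d24
  have l34 := hS.line _ m3 _ m4 d34
  -- the triple intersections
  obtain ⟨z₁, hz1, n1, u1⟩ := tri (P₁ := P₃) (P₂ := P₄) (P₃ := P₂) (P₄ := P₁) h l34 (hS.pt _ m2) (hS.trip _ m3 _ m4 _ m2)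
    (hS.trip _ m3 _ m4 _ m1) (by rw [← h4]; ac_rfl)
  obtain ⟨z₂, hz2, n2, u2⟩ := tri (P₁ := P₃) (P₂ := P₄) (P₃ := P₁) (P₄ := P₂) h l34 (hS.pt _ m1) (hS.trip _ m3 _ m4 _ m1)
    (hS.trip _ m3 _ m4 _ m2) (by rw [← h4]; ac_rfl)
  obtain ⟨z₃, hz3, n3, u3⟩ := tri (P₁ := P₂) (P₂ := P₄) (P₃ := P₁) (P₄ := P₃) h l24 (hS.pt _ m1) (hS.trip _ m2 _ m4 _ m1)
    (hS.trip _ m2 _ m4 _ m3) (by rw [← h4]; ac_rfl)
  obtain ⟨z₄, hz4, n4, u4⟩ := tri (P₁ := P₂) (P₂ := P₃) (P₃ := P₁) (P₄ := P₄) h l23 (hS.pt _ m1) (hS.trip _ m2 _ m3 _ m1)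
    (hS.trip _ m2 _ m3 _ m4) (by rw [← h4]; ac_rfl)
  have tot : ∀ u, u ∈ P₁ → u ∈ P₂ → u ∈ P₃ → u ∈ P₄ → u = 1 := by
    intro u a1 a2 a3 a4
    have : u ∈ P₁ ⊓ P₂ ⊓ P₃ ⊓ P₄ := ⟨⟨⟨a1, a2⟩, a3⟩, a4⟩
    rwa [h4, Subgroup.mem_bot] at this
  have k1 : z₁ ∉ P₁ := fun h' => n1 (tot _ h' hz1.2 hz1.1.1 hz1.1.2)
  have k2 : z₂ ∉ P₂ := fun h' => n2 (tot _ hz2.2 h' hz2.1.1 hz2.1.2)
  have k3 : z₃ ∉ P₃ := fun h' => n3 (tot _ hz3.2 hz3.1.1 h' hz3.1.2)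
  have hE : z₁ ∈ E := by
    refine mem_E hS.loc (T := P₃ ⊓ P₄ ⊓ P₂) (fun x hx u hu => ?_) n1 hz1 ((h.f3.el _ (hS.pt _ m2)).sq _ hz1.2) u1
    exact ⟨⟨conj_mem (hS.norm _ m3 hx) hu.1.1, conj_mem (hS.norm _ m4 hx) hu.1.2⟩, conj_mem (hS.norm _ m2 hx) hu.2⟩
  have A1 : Γ.A z₁ := h.f6.pure _ l34 z₁ hz1.1 n1
  have hact : Act Γ P₁ z₁ := ⟨hS.norm _ m1 (hS.loc.E_le hE), k1, A1⟩
  have hww : z₁ * z₁ = 1 := (h.f1.A_inv _ A1).2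
  -- membership in `Fs`
  have hFs : ∀ (D P : Subgroup G) (z : G), Γ.Ln D → Γ.Pt P → D ≤ P → z ∈ D → z₁ ∈ D → z ≠ 1 → z ∈ P₁ →
      IsX Γ P₁ z₁ z := by
    intro D P z hD hP hDP hz hz1D hz0 hzP
    refine ⟨⟨hzP, (h.f3.el P hP).comm _ (hDP hz) _ (hDP hz1D), Or.inr ⟨h.f6.pure D hD z hz hz0, ?_⟩⟩, hz0, D, hD, hz, hz1D⟩
    refine h.f6.pure D hD _ (D.mul_mem hz hz1D) fun e => k1 ?_
    have : z = z₁ := by
      have h1 : z * z₁ = z₁ * z₁ := by rw [e, hww]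
      exact mul_right_cancel h1
    rwa [← this]
  have X2 := hFs (P₃ ⊓ P₄) P₃ z₂ l34 (hS.pt _ m3) inf_le_left hz2.1 hz1.1 n2 hz2.2
  have X3 := hFs (P₂ ⊓ P₄) P₂ z₃ l24 (hS.pt _ m2) inf_le_left hz3.1 ⟨hz1.2, hz1.1.2⟩ n3 hz3.2
  have X4 := hFs (P₂ ⊓ P₃) P₂ z₄ l23 (hS.pt _ m2) inf_le_left hz4.1 ⟨hz1.2, hz1.1.1⟩ n4 hz4.2
  have hk : KA Γ P₁ z₁ := by
    rcases h.f9.kind P₁ z₁ (hS.pt _ m1) hact with hk | hk
    · exact hk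
    · exfalso
      obtain ⟨x, -, hx, -⟩ := hk.ex
      apply k3
      rw [hx _ X3, ← hx _ X2]
      exact hz2.1.1
  obtain ⟨X, hX, -, hcard⟩ := h.f12 P₁ z₁ (hS.pt _ m1) hk
  refine ⟨X, hX, ?_, ?_, ?_, ?_, ?_⟩
  · refine hcard P₁ (hS.pt _ m1) ?_
    rw [← hk.card]
    exact Set.ncard_le_ncard (fun u hu => ⟨Or.inl hu, hu.1⟩) (Set.toFinite _)
  · exact hcard P₂ (hS.pt _ m2) (eight_le h hmul (hS.pt _ m1) hk hz1.2 X3.mem X4.mem hz3.1.1 hz4.1.1 n3 n4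
      fun e => k3 (e ▸ hz4.1.2))
  · exact hcard P₃ (hS.pt _ m3) (eight_le h hmul (hS.pt _ m1) hk hz1.1.1 X2.mem X4.mem hz2.1.1 hz4.1.2 n2 n4
      fun e => k2 (e ▸ hz4.1.1))
  · exact hcard P₄ (hS.pt _ m4) (eight_le h hmul (hS.pt _ m1) hk hz1.1.2 X2.mem X3.mem hz2.1.2 hz3.1.2 n2 n3
      fun e => k2 (e ▸ hz3.1.1))
  · intro P' hP' e1 e2 e3
    exact hcard P' hP' (eight_le h hmul (hS.pt _ m1) hk (e1 ⟨⟨hz1.2, hz1.1.1⟩, hz1.1.2⟩) X2.mem X3.mem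
      (e2 ⟨⟨hz2.2, hz2.1.1⟩, hz2.1.2⟩) (e3 ⟨⟨hz3.2, hz3.1.1⟩, hz3.1.2⟩) n2 n3 fun e => k2 (e ▸ hz3.1.1))

/-- the order of a triple intersection -/
theorem card_tri (h : Facts Γ) {M Q E : Subgroup G} {S : Set (Subgroup G)} (hS : Set4 Γ M Q E S)
    {P₁ P₂ P₃ P₄ : Subgroup G} (m1 : P₁ ∈ S) (m2 : P₂ ∈ S) (m3 : P₃ ∈ S) (m4 : P₄ ∈ S)
    (h4 : P₁ ⊓ P₂ ⊓ P₃ ⊓ P₄ = ⊥) : P₁ ≠ P₂ ∧ Nat.card (P₁ ⊓ P₂ ⊓ P₃ : Subgroup G) = 2 := by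
  have d12 : P₁ ≠ P₂ := by
    rintro rfl
    rw [inf_idem] at h4
    exact hS.trip _ m1 _ m3 _ m4 h4
  obtain ⟨z, hz, hz1, hu⟩ := tri h (hS.line _ m1 _ m2 d12) (hS.pt _ m3) (hS.trip _ m1 _ m2 _ m3)
    (hS.trip _ m1 _ m2 _ m4) h4
  exact ⟨d12, card_two hz hz1 hu⟩

/-- two groups `X` with large intersection with three points agree -/
theorem X_uniq' (h : Facts Γ) {M Q E : Subgroup G} {S : Set (Subgroup G)} (hS : Set4 Γ M Q E S)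
    {P₁ P₂ P₃ P₄ : Subgroup G} (m1 : P₁ ∈ S) (m2 : P₂ ∈ S) (m3 : P₃ ∈ S) (m4 : P₄ ∈ S)
    (h4 : P₁ ⊓ P₂ ⊓ P₃ ⊓ P₄ = ⊥) {X X' : Subgroup G} (hX : Γ.Xc X) (hX' : Γ.Xc X')
    (c1 : Nat.card (P₁ ⊓ X : Subgroup G) = 64) (c2 : Nat.card (P₂ ⊓ X : Subgroup G) = 64)
    (c3 : Nat.card (P₃ ⊓ X : Subgroup G) = 64) (c1' : Nat.card (P₁ ⊓ X' : Subgroup G) = 64)
    (c2' : Nat.card (P₂ ⊓ X' : Subgroup G) = 64) (c3' : Nat.card (P₃ ⊓ X' : Subgroup G) = 64) : X = X' := by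
  obtain ⟨d12, hc⟩ := card_tri h hS m1 m2 m3 m4 h4
  have d13 := (card_tri h hS m1 m3 m2 m4 (by rw [← h4]; ac_rfl)).1
  have d23 := (card_tri h hS m2 m3 m1 m4 (by rw [← h4]; ac_rfl)).1
  exact X_uniq h (hS.pt _ m1) (hS.pt _ m2) (hS.pt _ m3) d12 d13 d23 (hS.line _ m1 _ m2 d12) (hS.line _ m1 _ m3 d13)
    (hS.line _ m2 _ m3 d23) hc hX hX' c1 c2 c3 c1' c2' c3'

/-- a point not containing the triple intersection gives a new 4-tuple with the same `X` -/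
theorem step (h : Facts Γ) (hmul : ∀ P w, Γ.Pt P → KA Γ P w → ∀ v ∈ Fs Γ P w, ∀ v' ∈ Fs Γ P w, v * v' ∈ Fs Γ P w)
    {M Q E : Subgroup G} {S : Set (Subgroup G)} (hS : Set4 Γ M Q E S) {P₁ P₂ P₃ P₄ P : Subgroup G} (m1 : P₁ ∈ S)
    (m2 : P₂ ∈ S) (m3 : P₃ ∈ S) (m4 : P₄ ∈ S) (mP : P ∈ S) (h4 : P₁ ⊓ P₂ ⊓ P₃ ⊓ P₄ = ⊥) {X : Subgroup G}
    (hX : Γ.Xc X) (c1 : Nat.card (P₁ ⊓ X : Subgroup G) = 64) (c2 : Nat.card (P₂ ⊓ X : Subgroup G) = 64)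
    (c3 : Nat.card (P₃ ⊓ X : Subgroup G) = 64) (hP : ¬ P₁ ⊓ P₂ ⊓ P₃ ≤ P) : Nat.card (P ⊓ X : Subgroup G) = 64 := by
  obtain ⟨d12, hc⟩ := card_tri h hS m1 m2 m3 m4 h4
  have h5 : P₁ ⊓ P₂ ⊓ P₃ ⊓ P = ⊥ := by
    by_contra hne
    obtain ⟨u, hu, hu1⟩ := exists_ne_one hne
    obtain ⟨z, hz, hz1, hz'⟩ := tri h (hS.line _ m1 _ m2 d12) (hS.pt _ m3) (hS.trip _ m1 _ m2 _ m3)
      (hS.trip _ m1 _ m2 _ m4) h4
    apply hP
    intro x hx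
    rcases hz' x hx with rfl | rfl
    · exact P.one_mem
    · rcases hz' u hu.1 with h6 | h6
      · exact absurd h6 hu1
      · rw [← h6]
        exact hu.2
  obtain ⟨X', hX', e1, e2, e3, e4, -⟩ := exists_X h hmul hS m1 m2 m3 mP h5
  rw [X_uniq' h hS m1 m2 m3 m4 h4 hX hX' c1 c2 c3 e1 e2 e3]
  exact e4

/-- **All the points of `S` meet `X` in a group of order 64.** -/
theorem exists_all (h : Facts Γ) (hmul : ∀ P w, Γ.Pt P → KA Γ P w → ∀ v ∈ Fs Γ P w, ∀ v' ∈ Fs Γ P w, v * v' ∈ Fs Γ P w)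
    {M Q E : Subgroup G} {S : Set (Subgroup G)} (hS : Set4 Γ M Q E S) {P₁ P₂ P₃ P₄ : Subgroup G} (m1 : P₁ ∈ S)
    (m2 : P₂ ∈ S) (m3 : P₃ ∈ S) (m4 : P₄ ∈ S) (h4 : P₁ ⊓ P₂ ⊓ P₃ ⊓ P₄ = ⊥) :
    ∃ X, Γ.Xc X ∧ ∀ P ∈ S, Nat.card (P ⊓ X : Subgroup G) = 64 := by
  obtain ⟨X, hX, c1, c2, c3, c4, hc⟩ := exists_X h hmul hS m1 m2 m3 m4 h4
  refine ⟨X, hX, fun P mP => ?_⟩
  by_cases a1 : P₂ ⊓ P₃ ⊓ P₄ ≤ P
  · by_cases a2 : P₁ ⊓ P₃ ⊓ P₄ ≤ P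
    · by_cases a3 : P₁ ⊓ P₂ ⊓ P₄ ≤ P
      · exact hc P (hS.pt _ mP) a1 a2 a3
      · exact step h hmul hS m1 m2 m4 m3 mP (by rw [← h4]; ac_rfl) hX c1 c2 c4 a3
    · exact step h hmul hS m1 m3 m4 m2 mP (by rw [← h4]; ac_rfl) hX c1 c3 c4 a2
  · exact step h hmul hS m2 m3 m4 m1 mP (by rw [← h4]; ac_rfl) hX c2 c3 c4 a1

theorem cj_cj (a b : G) (H : Subgroup G) : cj a (cj b H) = cj (a * b) H := by
  ext x
  constructor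
  · rintro ⟨y, ⟨u, hu, rfl⟩, rfl⟩
    refine ⟨u, hu, ?_⟩
    simp [mul_assoc]
  · rintro ⟨u, hu, rfl⟩
    refine ⟨b * u * b⁻¹, ⟨u, hu, rfl⟩, ?_⟩
    simp [mul_assoc]

theorem cj_one (H : Subgroup G) : cj (1 : G) H = H := by
  ext x
  constructor
  · rintro ⟨u, hu, rfl⟩
    simpa using hu
  · intro hx
    exact ⟨x, hx, by simp⟩

theorem card_cj_inf (m : G) (P X : Subgroup G) :
    Nat.card (P ⊓ cj m X : Subgroup G) = Nat.card (cj m⁻¹ P ⊓ X : Subgroup G) := by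
  have h1 : P ⊓ cj m X = cj m (cj m⁻¹ P ⊓ X) := by
    have h2 : cj m (cj m⁻¹ P ⊓ X) = cj m (cj m⁻¹ P) ⊓ cj m X :=
      Subgroup.map_inf _ _ (MulAut.conj m).toMonoidHom (MulAut.conj m).injective
    rw [h2, cj_cj, mul_inv_cancel, cj_one]
  rw [h1]
  exact Nat.card_congr ((cj m⁻¹ P ⊓ X).equivMapOfInjective _ (MulAut.conj m).injective).toEquiv.symm

theorem mem_normalizer_of_cj {m : G} {X : Subgroup G} (h : cj m X = X) : m ∈ Subgroup.normalizer (X : Set G) := by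
  rw [Subgroup.mem_normalizer_iff]
  intro u
  constructor
  · intro hu
    rw [← h]
    exact ⟨u, hu, rfl⟩
  · intro hu
    rw [← h] at hu
    obtain ⟨y, hy, e⟩ := hu
    have : y = u := (MulAut.conj m).injective e
    rwa [← this]

/-- **JM-L3**, with the closure of `F_w` for kind A as an extra hypothesis -/
theorem l3' (h : Facts Γ) (hmul : ∀ P w, Γ.Pt P → KA Γ P w → ∀ v ∈ Fs Γ P w, ∀ v' ∈ Fs Γ P w, v * v' ∈ Fs Γ P w) :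
    L3 Γ := by
  intro M Q E hL S hinv hpt hline htrip hex hS0
  have hS : Set4 Γ M Q E S := ⟨hL, fun P hP => (hpt P hP).1, fun P hP => (hpt P hP).2, hline, htrip⟩
  obtain ⟨P₁, m1, P₂, m2, d12⟩ := hex
  have l12 := hline _ m1 _ m2 d12
  have hcard := h.f6.card _ l12
  obtain ⟨P₃, m3, a3⟩ : ∃ P₃ ∈ S, ¬ P₁ ⊓ P₂ ≤ P₃ := by
    by_contra hcon
    push Not at hcon
    have h1 : P₁ ⊓ P₂ ≤ sInf S := le_sInf hcon
    rw [hS0, le_bot_iff] at h1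
    rw [h1, Subgroup.card_bot] at hcard
    omega
  obtain ⟨z, hz, hz1⟩ := exists_ne_one (htrip _ m1 _ m2 _ m3)
  obtain ⟨P₄, m4, a4⟩ : ∃ P₄ ∈ S, z ∉ P₄ := by
    by_contra hcon
    push Not at hcon
    have h1 : z ∈ sInf S := Subgroup.mem_sInf.2 hcon
    rw [hS0, Subgroup.mem_bot] at h1
    exact hz1 h1
  have h4 : P₁ ⊓ P₂ ⊓ P₃ ⊓ P₄ = ⊥ := by
    by_contra hne
    obtain ⟨u, hu, hu1⟩ := exists_ne_one hne
    have huz : u ≠ z := fun e => a4 (e ▸ hu.2)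
    exact a3 (h.f6.le _ _ l12 (hS.pt _ m3) u z hu1 hz1 huz hu.1.1 hz.1 hu.1.2 hz.2)
  obtain ⟨X, hX, hall⟩ := exists_all h hmul hS m1 m2 m3 m4 h4
  refine Or.inr (Or.inr (Or.inr ⟨X, hX, fun m hm => mem_normalizer_of_cj ?_⟩))
  have hall' : ∀ P ∈ S, Nat.card (P ⊓ cj m X : Subgroup G) = 64 := fun P hP => by
    rw [card_cj_inf]
    exact hall _ (hinv _ (M.inv_mem hm) P hP)
  exact X_uniq' h hS m1 m2 m3 m4 h4 (h.f1.Xc_conj m X hX) hX (hall' _ m1) (hall' _ m2) (hall' _ m3) (hall _ m1)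
    (hall _ m2) (hall _ m3)

end eight

/-- **Lemma L3.** -/
theorem l3 [Finite G] (Γ : Geom G) (h : Facts Γ) : L3 Γ := l3' h fun _ _ _ hk => hk.mul

end Cfsg.Agent.H919.JM
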